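import Cfsg.Agent.H888.L34.Cent

/-!
# S5917, part I (group side): at most 18 automorphisms of `L3(4)` fix a Sylow 3-subgroup elementwise (helper888)
-/

set_option autoImplicit false

namespace Cfsg.Agent.H888.L34

variable {F : Type*} [Field F]

local notation "SLF" => Matrix.SpecialLinearGroup (Fin 3) F
local notation "PSF" => Matrix.ProjectiveSpecialLinearGroup (Fin 3) F
local notation "MF" => Matrix (Fin 3) (Fin 3) F

/-- scalar elements -/
def sc (r : F) (h : r ^ 3 = 1) : SLF := ⟨r • (1 : MF), by rw [Matrix.det_smul, Matrix.det_one, mul_one]; simpa using h⟩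

theorem coe_sc_mul (r : F) (h : r ^ 3 = 1) (s : SLF) : ((sc r h * s : SLF) : MF) = r • (s : MF) := by
  rw [Matrix.SpecialLinearGroup.coe_mul]
  change (r • (1 : MF)) * _ = _
  rw [Matrix.smul_mul, Matrix.one_mul]

theorem sc_comm (r : F) (h : r ^ 3 = 1) (s : SLF) : sc r h * s = s * sc r h := by
  apply Subtype.ext
  rw [coe_sc_mul, Matrix.SpecialLinearGroup.coe_mul]
  change _ = (s : MF) * (r • (1 : MF))
  rw [Matrix.mul_smul, Matrix.mul_one]

theorem sc_inj {r t : F} (h : r ^ 3 = 1) (h' : t ^ 3 = 1) (e : sc r h = sc t h') : r = t := by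
  have h1 := congrArg (fun s : SLF => (s : MF) 0 0) e
  simpa [sc] using h1

theorem mk_eq {s t : SLF} (h : (QuotientGroup.mk s : PSF) = QuotientGroup.mk t) :
    ∃ (r : F) (hr : r ^ 3 = 1), s = sc r hr * t := by
  obtain ⟨r, hr, h1⟩ := mk_eq_mk h
  exact ⟨r, hr, Subtype.ext (by rw [coe_sc_mul]; exact h1)⟩

theorem tr_mul (s t : SLF) : tr (s * t) = tr s * tr t := by
  apply Subtype.ext
  change (((s * t)⁻¹ : SLF) : MF).transpose = ((s⁻¹ : SLF) : MF).transpose * ((t⁻¹ : SLF) : MF).transpose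
  rw [mul_inv_rev, Matrix.SpecialLinearGroup.coe_mul, Matrix.transpose_mul]

theorem nn_mul (ε : Bool) (σ : F ≃+* F) (s t : SLF) : nn ε σ (s * t) = nn ε σ s * nn ε σ t := by
  cases ε
  · exact map_mul _ s t
  · change Matrix.SpecialLinearGroup.map (σ : F →+* F) (tr (s * t)) = _
    rw [tr_mul]
    exact map_mul _ _ _

theorem cj_mul (M : GL (Fin 3) F) (s t : SLF) : cj M (s * t) = cj M s * cj M t := by
  apply Subtype.ext
  change (M : MF) * ((s * t : SLF) : MF) * ((M⁻¹ : GL (Fin 3) F) : MF) =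
    ((M : MF) * (s : MF) * ((M⁻¹ : GL (Fin 3) F) : MF)) * ((M : MF) * (t : MF) * ((M⁻¹ : GL (Fin 3) F) : MF))
  have h : ((M⁻¹ : GL (Fin 3) F) : MF) * (M : MF) = 1 := Units.inv_mul M
  rw [Matrix.SpecialLinearGroup.coe_mul]
  calc (M : MF) * ((s : MF) * (t : MF)) * ((M⁻¹ : GL (Fin 3) F) : MF)
      = (M : MF) * (s : MF) * 1 * (t : MF) * ((M⁻¹ : GL (Fin 3) F) : MF) := by noncomm_ring
    _ = _ := by rw [← h]; noncomm_ring

theorem cj_sc (M : GL (Fin 3) F) (r : F) (h : r ^ 3 = 1) : cj M (sc r h) = sc r h := by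
  apply Subtype.ext
  change (M : MF) * (r • (1 : MF)) * ((M⁻¹ : GL (Fin 3) F) : MF) = r • (1 : MF)
  rw [Matrix.mul_smul, Matrix.mul_one, Matrix.smul_mul, Units.mul_inv]

theorem inv_pow_three {r : F} (h : r ^ 3 = 1) : (r⁻¹) ^ 3 = 1 := by rw [inv_pow, h, inv_one]

theorem sc_inv (r : F) (h : r ^ 3 = 1) : (sc r h)⁻¹ = sc r⁻¹ (inv_pow_three h) := by
  have hr : r ≠ 0 := by rintro rfl; simp at h
  rw [inv_eq_iff_mul_eq_one]
  apply Subtype.ext
  rw [coe_sc_mul]
  change r • (r⁻¹ • (1 : MF)) = 1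
  rw [smul_smul, mul_inv_cancel₀ hr, one_smul]

theorem map_pow_three (σ : F ≃+* F) {r : F} (h : r ^ 3 = 1) : (σ r) ^ 3 = 1 := by rw [← map_pow, h, map_one]

theorem map_sc (σ : F ≃+* F) (r : F) (h : r ^ 3 = 1) :
    Matrix.SpecialLinearGroup.map (σ : F →+* F) (sc r h) = sc (σ r) (map_pow_three σ h) := by
  apply Subtype.ext
  ext i j
  change σ ((r • (1 : MF)) i j) = (σ r • (1 : MF)) i j
  rw [Matrix.smul_apply, Matrix.smul_apply, smul_eq_mul, smul_eq_mul, map_mul]
  congr 1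
  by_cases hij : i = j
  · subst hij; simp
  · simp [Matrix.one_apply_ne hij]

theorem nn_sc_false (σ : F ≃+* F) (r : F) (h : r ^ 3 = 1) : nn false σ (sc r h) = sc (σ r) (map_pow_three σ h) :=
  map_sc σ r h

theorem nn_sc_true (σ : F ≃+* F) (r : F) (h : r ^ 3 = 1) :
    nn true σ (sc r h) = sc (σ r⁻¹) (map_pow_three σ (inv_pow_three h)) := by
  change Matrix.SpecialLinearGroup.map (σ : F →+* F) (tr (sc r h)) = _
  have h1 : tr (sc r h) = sc r⁻¹ (inv_pow_three h) := by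
    apply Subtype.ext
    change (((sc r h)⁻¹ : SLF) : MF).transpose = r⁻¹ • (1 : MF)
    rw [sc_inv]
    change (r⁻¹ • (1 : MF)).transpose = _
    rw [Matrix.transpose_smul, Matrix.transpose_one]
  rw [h1, map_sc]

/-- the pair of lifts -/
structure Pr (x y : SLF) (ω : F) : Prop where
  om : ω ^ 2 + ω + 1 = 0
  o3 : ω ^ 3 = 1
  xy : x * y = sc ω o3 * (y * x)
  irr : ∀ K : MF, K * (x : MF) = (x : MF) * K → K * (y : MF) = (y : MF) * K → ∃ k : F, K = k • (1 : MF)

variable {x y : Matrix.SpecialLinearGroup (Fin 3) F} {ω : F}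

theorem theta_sc (h : Pr x y ω) {ε : Bool} {σ : F ≃+* F} {M : GL (Fin 3) F} {l m : F} (hl : l ^ 3 = 1) (hm : m ^ 3 = 1)
    (hx : cj M (nn ε σ x) = sc l hl * x) (hy : cj M (nn ε σ y) = sc m hm * y) :
    cj M (nn ε σ (sc ω h.o3)) = sc ω h.o3 := by
  have h1 : cj M (nn ε σ (x * y)) = cj M (nn ε σ (sc ω h.o3 * (y * x))) := by rw [h.xy]
  rw [nn_mul, cj_mul, nn_mul, cj_mul, nn_mul, cj_mul, hx, hy] at h1
  set c := cj M (nn ε σ (sc ω h.o3))
  have e1 : sc l hl * x * (sc m hm * y) = sc l hl * sc m hm * (sc ω h.o3 * (y * x)) := by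
    rw [← h.xy]
    calc sc l hl * x * (sc m hm * y) = sc l hl * (x * sc m hm) * y := by group
      _ = sc l hl * (sc m hm * x) * y := by rw [sc_comm m hm x]
      _ = _ := by group
  have e2 : c * (sc m hm * y * (sc l hl * x)) = sc l hl * sc m hm * (c * (y * x)) := by
    calc c * (sc m hm * y * (sc l hl * x)) = c * sc m hm * (y * sc l hl) * x := by group
      _ = c * sc m hm * (sc l hl * y) * x := by rw [sc_comm l hl y]
      _ = c * (sc m hm * sc l hl) * (y * x) := by group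
      _ = c * (sc l hl * sc m hm) * (y * x) := by rw [sc_comm m hm (sc l hl)]
      _ = (c * sc l hl) * sc m hm * (y * x) := by group
      _ = (sc l hl * c) * sc m hm * (y * x) := by rw [sc_comm l hl c]
      _ = sc l hl * (c * sc m hm) * (y * x) := by group
      _ = sc l hl * (sc m hm * c) * (y * x) := by rw [sc_comm m hm c]
      _ = _ := by group
  rw [e1, e2] at h1
  have h2 := mul_left_cancel h1
  exact (mul_right_cancel h2).symm

theorem sigma_false (h : Pr x y ω) {σ : F ≃+* F} {M : GL (Fin 3) F} {l m : F} (hl : l ^ 3 = 1) (hm : m ^ 3 = 1)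
    (hx : cj M (nn false σ x) = sc l hl * x) (hy : cj M (nn false σ y) = sc m hm * y) : σ ω = ω := by
  have h1 := theta_sc h hl hm hx hy
  rw [nn_sc_false, cj_sc] at h1
  exact sc_inj _ _ h1

theorem sigma_true (h : Pr x y ω) {σ : F ≃+* F} {M : GL (Fin 3) F} {l m : F} (hl : l ^ 3 = 1) (hm : m ^ 3 = 1)
    (hx : cj M (nn true σ x) = sc l hl * x) (hy : cj M (nn true σ y) = sc m hm * y) : σ ω = ω⁻¹ := by
  have h1 := theta_sc h hl hm hx hy
  rw [nn_sc_true, cj_sc] at h1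
  have h2 := sc_inj _ _ h1
  rw [map_inv₀] at h2
  rw [← inv_inv (σ ω), h2]

theorem cj_cj (M N : GL (Fin 3) F) (s : SLF) : cj M (cj N s) = cj (M * N) s := by
  apply Subtype.ext
  change (M : MF) * ((N : MF) * (s : MF) * ((N⁻¹ : GL (Fin 3) F) : MF)) * ((M⁻¹ : GL (Fin 3) F) : MF) =
    ((M * N : GL (Fin 3) F) : MF) * (s : MF) * (((M * N)⁻¹ : GL (Fin 3) F) : MF)
  rw [mul_inv_rev, Units.val_mul, Units.val_mul]
  simp only [mul_assoc]

theorem cj_one (s : SLF) : cj (1 : GL (Fin 3) F) s = s := by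
  apply Subtype.ext
  change ((1 : GL (Fin 3) F) : MF) * (s : MF) * (((1 : GL (Fin 3) F)⁻¹ : GL (Fin 3) F) : MF) = s
  rw [inv_one, Units.val_one, one_mul, mul_one]

theorem comm_of_cj (M : GL (Fin 3) F) {s : SLF} (h : cj M s = s) : (M : MF) * (s : MF) = (s : MF) * (M : MF) := by
  have h1 := congrArg (fun s : SLF => (s : MF)) h
  change (M : MF) * (s : MF) * ((M⁻¹ : GL (Fin 3) F) : MF) = (s : MF) at h1
  calc (M : MF) * (s : MF) = (M : MF) * (s : MF) * ((M⁻¹ : GL (Fin 3) F) : MF) * (M : MF) := by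
        rw [mul_assoc _ _ (M : MF), Units.inv_mul, mul_one]
    _ = _ := by rw [h1]

theorem cj_of_smul {K : GL (Fin 3) F} {r : F} (h : (K : MF) = r • (1 : MF)) (s : SLF) : cj K s = s := by
  apply Subtype.ext
  change (K : MF) * (s : MF) * ((K⁻¹ : GL (Fin 3) F) : MF) = s
  have h1 : (K : MF) * (s : MF) = (s : MF) * (K : MF) := by
    rw [h, Matrix.smul_mul, Matrix.mul_smul, one_mul, mul_one]
  rw [h1, mul_assoc, Units.mul_inv, mul_one]

/-- two automorphisms with the same data agree -/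
theorem same (h : Pr x y ω) {ε : Bool} {σ : F ≃+* F} {M N : GL (Fin 3) F} {l m : F} (hl : l ^ 3 = 1) (hm : m ^ 3 = 1)
    (hx : cj M (nn ε σ x) = sc l hl * x) (hy : cj M (nn ε σ y) = sc m hm * y)
    (hx' : cj N (nn ε σ x) = sc l hl * x) (hy' : cj N (nn ε σ y) = sc m hm * y) (s : SLF) :
    cj M s = cj N s := by
  have key : ∀ z : SLF, ∀ (r : F) (hr : r ^ 3 = 1), cj M (nn ε σ z) = sc r hr * z → cj N (nn ε σ z) = sc r hr * z →
      cj (M * N⁻¹) z = z := by
    intro z r hr h1 h2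
    have h3 : cj (M * N⁻¹) (sc r hr * z) = sc r hr * z := by
      rw [← h2, cj_cj, inv_mul_cancel_right, h1, h2]
    rw [cj_mul, cj_sc] at h3
    exact mul_left_cancel h3
  obtain ⟨k, hk⟩ := h.irr _ (comm_of_cj _ (key x l hl hx hx')) (comm_of_cj _ (key y m hm hy hy'))
  have h4 := cj_of_smul hk (cj N s)
  rwa [cj_cj, inv_mul_cancel_right] at h4

theorem card_cube_le [Fintype F] {ω : F} (h1 : ω ^ 2 + ω + 1 = 0) : Nat.card {r : F // r ^ 3 = 1} ≤ 3 := by
  classical
  rw [Nat.card_eq_fintype_card, Fintype.card_subtype]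
  have h2 : (Finset.univ.filter fun r : F => r ^ 3 = 1) ⊆ {1, ω, ω ^ 2} := by
    intro r hr
    have h3 := cube_cases h1 (Finset.mem_filter.1 hr).2
    simpa using h3
  exact (Finset.card_le_card h2).trans Finset.card_le_three

/-- at most 18 automorphisms fix both `mk x` and `mk y` -/
theorem card_fix_le [Fintype F] (hF : Fintype.card F = 4) (h : Pr x y ω) (P : MulAut PSF → Prop)
    (hPx : ∀ β, P β → β (QuotientGroup.mk x) = QuotientGroup.mk x)
    (hPy : ∀ β, P β → β (QuotientGroup.mk y) = QuotientGroup.mk y) :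
    Nat.card {β : MulAut PSF // P β} ≤ 18 := by
  classical
  have _ : Fact (Nat.Prime 2) := ⟨Nat.prime_two⟩
  have hF' : Fintype.card F = 2 ^ 2 := hF
  have ex : ∀ β : {β : MulAut PSF // P β}, ∃ (ε : Bool) (l m : {r : F // r ^ 3 = 1}) (σ : F ≃+* F) (M : GL (Fin 3) F),
      (∀ s : SLF, β.1 (QuotientGroup.mk s) = QuotientGroup.mk (cj M (nn ε σ s))) ∧
      cj M (nn ε σ x) = sc l.1 l.2 * x ∧ cj M (nn ε σ y) = sc m.1 m.2 * y := by
    rintro ⟨β, hβ⟩
    obtain ⟨ε, σ, M, hM⟩ := aut_form hF' (by norm_num) β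
    obtain ⟨l, hl, h1⟩ := mk_eq ((hM x).symm.trans (hPx β hβ))
    obtain ⟨m, hm, h2⟩ := mk_eq ((hM y).symm.trans (hPy β hβ))
    exact ⟨ε, ⟨l, hl⟩, ⟨m, hm⟩, σ, M, hM, h1, h2⟩
  choose ε l m σ M hM hx hy using ex
  have hinj : Function.Injective (fun β : {β : MulAut PSF // P β} => (ε β, l β, m β)) := by
    intro β γ hβγ
    simp only [Prod.mk.injEq] at hβγ
    obtain ⟨e1, e2, e3⟩ := hβγ
    have hσ : σ β = σ γ := by
      have hb := hx β
      have hb' := hy β
      have hc := hx γ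
      have hc' := hy γ
      rw [← e1] at hc hc'
      apply sigma_ext hF h.om
      cases hε : ε β
      · rw [hε] at hb hb' hc hc'
        rw [sigma_false h _ _ hb hb', sigma_false h _ _ hc hc']
      · rw [hε] at hb hb' hc hc'
        rw [sigma_true h _ _ hb hb', sigma_true h _ _ hc hc']
    apply Subtype.ext
    apply MulEquiv.ext
    intro z
    obtain ⟨s, rfl⟩ := QuotientGroup.mk_surjective z
    rw [hM β s, hM γ s]
    have hb := hx β
    have hb' := hy β
    have hc := hx γ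
    have hc' := hy γ
    rw [← e1, ← e2, ← hσ] at hc
    rw [← e1, ← e3, ← hσ] at hc'
    have := same h (l β).2 (m β).2 hb hb' hc hc' (nn (ε β) (σ β) s)
    rw [this, e1, hσ]
  have h3 := Nat.card_le_card_of_injective _ hinj
  have h4 := card_cube_le h.om
  rw [Nat.card_prod, Nat.card_prod, Nat.card_eq_fintype_card (α := Bool), Fintype.card_bool] at h3
  calc _ ≤ _ := h3
    _ ≤ 2 * (3 * 3) := by gcongr
    _ = 18 := by norm_num

end Cfsg.Agent.H888.L34
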