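import Cfsg.Agent.H550.L34.Rel

/-!
# S5917: the four elements of order 3 of the extraspecial group (hypothesis `ho` of `H888.L34.ZFix.z2_zero`)
-/

set_option autoImplicit false

namespace Cfsg.Agent.H888.L34.Ord

open Matrix Cfsg.Agent.H691.L34 Cfsg.Agent.H550.L34

variable {F : Type} [Field F] {ω : F}

theorem DP_3 (h : Om ω) : (gD h * gP h) ^ 3 = 1 := by
  have h2 := h.two
  have h1 := h.eq
  apply Subtype.ext
  rw [pow_succ, pow_two]
  show (mD ω * mP) * (mD ω * mP) * (mD ω * mP) = 1
  ext i j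
  fin_cases i <;> fin_cases j <;> simp [mD, mP, Matrix.mul_apply, Fin.sum_univ_three] <;> grind

theorem DPP_3 (h : Om ω) : (gD h * gP h * gP h) ^ 3 = 1 := by
  have h2 := h.two
  have h1 := h.eq
  apply Subtype.ext
  rw [pow_succ, pow_two]
  show (mD ω * mP * mP) * (mD ω * mP * mP) * (mD ω * mP * mP) = 1
  ext i j
  fin_cases i <;> fin_cases j <;> simp [mD, mP, Matrix.mul_apply, Fin.sum_univ_three] <;> grind

theorem PD_ne (h : Om ω) : gP h * gD h ≠ gD h * gP h := by
  intro e
  rw [P_D] at e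
  have e1 : gS h = 1 := mul_eq_right.1 e
  have e2 := congrArg (fun g : G3 F => g.1 0 0) e1
  have e3 : ω = 1 := by
    have : (ω • (1 : M3 F)) 0 0 = (1 : M3 F) 0 0 := e2
    simpa using this
  exact om_ne h e3

/-- **the four elements** -/
theorem ho (h : Om ω) : ∀ g ∈ ([gD h, gP h, gD h * gP h, gD h * gP h * gP h] : List (G3 F)),
    orderOf g = 3 ∧ g ∉ Subgroup.center (G3 F) := by
  have key : ∀ g : G3 F, g ^ 3 = 1 → g ∉ Subgroup.center (G3 F) → orderOf g = 3 ∧ g ∉ Subgroup.center (G3 F) := by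
    intro g h3 hc
    refine ⟨orderOf_eq_prime h3 ?_, hc⟩
    rintro rfl
    exact hc (Subgroup.one_mem _)
  have hne := PD_ne h
  have c1 : gD h ∉ Subgroup.center (G3 F) := fun hc => hne (Subgroup.mem_center_iff.1 hc _)
  have c2 : gP h ∉ Subgroup.center (G3 F) := fun hc => hne (Subgroup.mem_center_iff.1 hc _).symm
  have c3 : gD h * gP h ∉ Subgroup.center (G3 F) := fun hc => by
    have e := Subgroup.mem_center_iff.1 hc (gP h)
    apply hne
    apply mul_right_cancel (b := gP h)
    rw [mul_assoc, e]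
  have c4 : gD h * gP h * gP h ∉ Subgroup.center (G3 F) := fun hc => by
    have e := Subgroup.mem_center_iff.1 hc (gP h)
    apply hne
    apply mul_right_cancel (b := gP h * gP h)
    rw [← mul_assoc, ← mul_assoc]
    calc gP h * gD h * gP h * gP h = gP h * (gD h * gP h * gP h) := by group
      _ = gD h * gP h * gP h * gP h := e
  intro g hg
  simp only [List.mem_cons, List.not_mem_nil, or_false] at hg
  rcases hg with rfl | rfl | rfl | rfl
  · exact key _ (D_3 h) c1
  · exact key _ (P_3 h) c2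
  · exact key _ (DP_3 h) c3
  · exact key _ (DPP_3 h) c4

end Cfsg.Agent.H888.L34.Ord
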